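import Mathlib
import Cfsg.Agent.Lib.Helper81.Det

/-!
# Determinantal characters, power maps and the `p`-part correction
-/

set_option autoImplicit false

namespace Cfsg.Agent.Lib.Helper16

open Cfsg Cfsg.Agent.Lib.Helper15 Cfsg.Agent.Lib.Helper81

variable {G : Type*} [Group G] [Finite G]

/-- the power map on a cyclic subgroup, as a homomorphism into `G` -/
def zpowPow (y : G) (k : ℕ) : Subgroup.zpowers y →* G where
  toFun z := (z : G) ^ k
  map_one' := by simp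
  map_mul' a b := by
    obtain ⟨a, i, rfl⟩ := a
    obtain ⟨b, j, rfl⟩ := b
    simp only [Subgroup.coe_mul]
    exact ((Commute.refl y).zpow_zpow i j).mul_pow k

theorem detChar_pow_map {χ : G → ℂ} (hχ : IsCharacter G χ) {k : ℕ}
    (hχk : IsCharacter G (fun g => χ (g ^ k))) (y : G) :
    detChar (fun g => χ (g ^ k)) y = detChar χ (y ^ k) := by
  have h1 := detChar_comp (zpowPow y k) hχ ⟨y, Subgroup.mem_zpowers y⟩
  have h2 := detChar_restrict (Subgroup.zpowers y) hχk ⟨y, Subgroup.mem_zpowers y⟩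
  exact h2.symm.trans h1

/-- the determinant of a `p`-rational character has order prime to `p` (`p` odd) -/
theorem det_pow_eq_one_of_pow_inv {p m : ℕ} (hp : p.Prime) (hp2 : p ≠ 2) (hpm : ¬ p ∣ m)
    {θ : G → ℂ} (hθ : IsCharacter G θ)
    (hinv : ∀ k : ℕ, k ≡ 1 [MOD m] → ¬ p ∣ k → ∀ x : G, θ (x ^ k) = θ x) :
    ∃ m1 : ℕ, ¬ p ∣ m1 ∧ ∀ x : G, detChar θ x ^ m1 = 1 := by
  obtain ⟨f, hf⟩ := exists_detHom hθ
  have hj : ∃ j : ℕ, ¬ p ∣ j ∧ ¬ p ∣ (1 + m * j) := by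
    by_cases h1 : p ∣ 1 + m * 1
    · refine ⟨2, fun h => hp2 ((Nat.prime_dvd_prime_iff_eq hp Nat.prime_two).1 h), fun h2 => ?_⟩
      have h3 : p ∣ (1 + m * 2) - (1 + m * 1) := Nat.dvd_sub h2 h1
      have h4 : (1 + m * 2) - (1 + m * 1) = m := by omega
      rw [h4] at h3
      exact hpm h3
    · exact ⟨1, fun h => hp.one_lt.ne' (Nat.dvd_one.1 h), h1⟩
  obtain ⟨j, hj1, hj2⟩ := hj
  refine ⟨m * j, hp.not_dvd_mul hpm hj1, fun x => ?_⟩
  have hk1 : 1 + m * j ≡ 1 [MOD m] := by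
    have : 1 + m * j ≡ 1 + 0 [MOD m] :=
      Nat.ModEq.add_left 1 ((Nat.modEq_zero_iff_dvd).2 (dvd_mul_right m j))
    simpa using this
  have hfun : (fun g => θ (g ^ (1 + m * j))) = θ := funext (hinv _ hk1 hj2)
  have h1 := detChar_pow_map hθ (k := 1 + m * j) (hfun.symm ▸ hθ) x
  rw [hfun, hf, toFn_apply, toFn_apply, map_pow, pow_add, pow_one, Units.val_mul] at h1
  have h2 : ((f x : ℂˣ) : ℂ) ≠ 0 := Units.ne_zero _
  have h3 : ((f x ^ (m * j) : ℂˣ) : ℂ) = 1 := by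
    have : ((f x : ℂˣ) : ℂ) * 1 = (f x : ℂ) * ((f x ^ (m * j) : ℂˣ) : ℂ) := by
      rw [mul_one]; exact h1
    exact (mul_left_cancel₀ h2 this).symm
  rw [hf, toFn_apply, ← Units.val_pow_eq_pow_val, h3]

/-- correcting the `p`-part of the determinant by a linear character of `p`-power order -/
theorem exists_det_correction {p a m d m1 : ℕ} (hp : p.Prime) (hpm : ¬ p ∣ m)
    (hcard : Nat.card G = p ^ a * m) {χ : G → ℂ} (hχ : IsCharacter G χ) (hd : χ 1 = d)
    (hpd : ¬ p ∣ d) (N : Subgroup G) (hm1 : ¬ p ∣ m1) (hN : ∀ n ∈ N, detChar χ n ^ m1 = 1) :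
    ∃ μ : G →* ℂˣ, (∀ n ∈ N, μ n = 1) ∧ (∀ g, μ g ^ p ^ a = 1) ∧
      ∀ g, detChar (toFn μ * χ) g ^ m = 1 := by
  obtain ⟨f, hf⟩ := exists_detHom hχ
  have hfc : ∀ g, f g ^ (p ^ a * m) = 1 := by
    intro g
    rw [← map_pow, ← hcard, pow_card_eq_one', map_one]
  haveI : NeZero (p ^ a) := ⟨(pow_pos hp.pos a).ne'⟩
  have hcop : Nat.Coprime (m * d) (p ^ a) :=
    Nat.Coprime.pow_right a ((Nat.Prime.coprime_iff_not_dvd hp).2 (hp.not_dvd_mul hpm hpd)).symm
  set w : ℕ := (-(((ZMod.unitOfCoprime (m * d) hcop)⁻¹ : (ZMod (p ^ a))ˣ) : ZMod (p ^ a))).val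
    with hw
  have hdvd : p ^ a ∣ m * w * d + 1 := by
    rw [← ZMod.natCast_eq_zero_iff]
    push_cast
    rw [hw, ZMod.natCast_zmod_val]
    have h1 : ((m : ZMod (p ^ a)) * (d : ZMod (p ^ a)))
        * (((ZMod.unitOfCoprime (m * d) hcop)⁻¹ : (ZMod (p ^ a))ˣ) : ZMod (p ^ a)) = 1 := by
      have := (ZMod.unitOfCoprime (m * d) hcop).mul_inv
      rw [ZMod.coe_unitOfCoprime] at this
      push_cast at this
      exact this
    linear_combination -h1
  refine ⟨f ^ (m * w), ?_, ?_, ?_⟩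
  · intro n hn
    have h1 : f n ^ m1 = 1 := by
      apply Units.ext
      have := hN n hn
      rw [hf, toFn_apply] at this
      rw [Units.val_pow_eq_pow_val, this, Units.val_one]
    have h2 : orderOf (f n) ∣ m := by
      have h3 : orderOf (f n) ∣ p ^ a * m := orderOf_dvd_of_pow_eq_one (hfc n)
      have h4 : Nat.Coprime (orderOf (f n)) (p ^ a) := by
        apply Nat.Coprime.pow_right
        apply Nat.Coprime.coprime_dvd_left (orderOf_dvd_of_pow_eq_one h1)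
        exact ((Nat.Prime.coprime_iff_not_dvd hp).2 hm1).symm
      exact h4.dvd_of_dvd_mul_left h3
    rw [MonoidHom.pow_apply, pow_mul, orderOf_dvd_iff_pow_eq_one.1 h2, one_pow]
  · intro g
    rw [MonoidHom.pow_apply, ← pow_mul]
    have : m * w * p ^ a = (p ^ a * m) * w := by ring
    rw [this, pow_mul, hfc, one_pow]
  · intro g
    rw [detChar_mul_linear _ hχ d hd, hf, Pi.mul_apply, Pi.pow_apply, toFn_apply, toFn_apply,
      MonoidHom.pow_apply]
    obtain ⟨c, hc⟩ := hdvd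
    have h1 : ((f g ^ (m * w) : ℂˣ) : ℂ) ^ d * (f g : ℂ) = ((f g ^ (m * w * d + 1) : ℂˣ) : ℂ) := by
      rw [pow_succ, pow_mul]
      push_cast
      ring
    rw [h1, ← Units.val_pow_eq_pow_val, ← pow_mul, hc]
    have : p ^ a * c * m = (p ^ a * m) * c := by ring
    rw [this, pow_mul, hfc, one_pow, Units.val_one]

end Cfsg.Agent.Lib.Helper16
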