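import Cfsg.Agent.Lib.Helper15.FullyRam
import Cfsg.Agent.Lib.Helper15.RelGl1
import Cfsg.Agent.S0886

/-!
# Fully ramified characters farm: piece C (cyclic quotient => multiplicity one)
-/

set_option autoImplicit false

namespace Cfsg.Agent.Lib.Helper16.FR

open Cfsg Cfsg.Agent.Lib Cfsg.Agent.Lib.Helper15
open scoped ComplexConjugate

variable {Y : Type*} [Group Y] [Fintype Y]

omit [Fintype Y] in
theorem isCyclic_quot {D S T : Subgroup Y} [D.Normal] (hTS : T ≤ S)
    {X : Type*} [Group X] (π : Y →* X) (hker : ∀ x ∈ S, π x = 1 → x ∈ D)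
    (hcyc : IsCyclic (S.map π)) : IsCyclic (↥T ⧸ D.subgroupOf T) := by
  let φ : ↥T →* ↥(S.map π) :=
    { toFun := fun t => ⟨π t, Subgroup.mem_map.mpr ⟨t, hTS t.2, rfl⟩⟩
      map_one' := by apply Subtype.ext; simp
      map_mul' := by intro a b; apply Subtype.ext; simp }
  haveI : IsCyclic φ.range := inferInstance
  obtain ⟨⟨g, t0, rfl⟩, hg⟩ := IsCyclic.exists_generator (α := φ.range)
  refine ⟨⟨(t0 : ↥T ⧸ D.subgroupOf T), ?_⟩⟩
  intro x
  obtain ⟨t, rfl⟩ := QuotientGroup.mk_surjective x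
  obtain ⟨k, hk⟩ := Subgroup.mem_zpowers_iff.mp (hg ⟨φ t, t, rfl⟩)
  refine Subgroup.mem_zpowers_iff.mpr ⟨k, ?_⟩
  have h1 : (φ t0) ^ k = φ t := by
    have := congrArg (fun z : φ.range => (z : ↥(S.map π))) hk
    simpa using this
  have h2 : π ((t0 : Y) ^ k) = π t := by
    have := congrArg (fun z : ↥(S.map π) => (z : X)) h1
    simpa [φ] using this
  rw [← QuotientGroup.mk_zpow, QuotientGroup.eq, Subgroup.mem_subgroupOf]
  apply hker
  · exact hTS (T.mul_mem (T.inv_mem (T.zpow_mem t0.2 k)) t.2)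
  · simp only [Subgroup.coe_mul, Subgroup.coe_inv, Subgroup.coe_zpow, map_mul, map_inv]
    rw [h2]
    simp

/-- PIECE C (restriction to a normal subgroup with cyclic quotient is multiplicity free). -/
theorem mult_one_of_cyclic {D S : Subgroup Y} [D.Normal] [Fintype D] [Fintype S] (hDS : D ≤ S)
    {X : Type*} [Group X] (π : Y →* X) (hker : ∀ x ∈ S, π x = 1 → x ∈ D)
    (hcyc : IsCyclic (S.map π))
    {ψ : S → ℂ} (hψ : IsIrrCharacter S ψ) {ξ : D → ℂ} (hξ : IsIrrCharacter D ξ)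
    (h : classInner (resFun hDS ψ) ξ ≠ 0) : classInner (resFun hDS ψ) ξ = 1 := by
  classical
  set T : Subgroup Y := S ⊓ inertia D ξ with hT
  haveI : Fintype T := Fintype.ofFinite _
  have hDT : D ≤ T := le_inf hDS (le_inertia D (irr_cf hξ))
  have hTS : T ≤ S := inf_le_left
  obtain ⟨-, -, c3, c4⟩ := rel_clifford_correspondence hDT hTS hξ hT
  obtain ⟨ψT, hψT, h1, h2⟩ := c4 ψ hψ h
  have h3 := c3 ψT hψT h1
  rw [h2] at h3
  have e0 : classInner (resFun hDS ψ) ξ = classInner (resFun hDT ψT) ξ := h3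
  rw [e0]
  have hinvT : ∀ k : T, cj D (k : Y) ξ = ξ := fun k => (Subgroup.mem_inf.mp k.2).2
  haveI : Fintype (D.subgroupOf T) := Fintype.ofFinite _
  have hcycT : IsCyclic (↥T ⧸ D.subgroupOf T) := isCyclic_quot hTS π hker hcyc
  have hirrN : IsIrrCharacter (D.subgroupOf T) (downFun D T ξ) := irr_downFun hDT hξ
  obtain ⟨χ, hχ, hχN⟩ := Cfsg.Agent.S0886.result (G := ↥T) (D.subgroupOf T) hcycT (downFun D T ξ) hirrN
    (by
      intro g n
      have := congrFun (cj_downFun D T g ξ) n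
      rw [hinvT g] at this
      exact this)
  have hχN' : (fun n : D.subgroupOf T => χ n) = downFun D T ξ := funext hχN
  have hab : ∀ a b : ↥T ⧸ D.subgroupOf T, a * b = b * a := by
    intro a b
    exact (IsCyclic.commGroup (α := ↥T ⧸ D.subgroupOf T)).mul_comm a b
  have hdeg := (exists_equiv_over (D.subgroupOf T) hab hχ (by rw [hχN']; exact hirrN)).2 ⟨ψT, hψT⟩ (by
    rw [hχN']
    show classInner (fun n : D.subgroupOf T => ψT n) (downFun D T ξ) ≠ 0
    rw [← downFun_resFun hDT ψT, classInner_downFun hDT]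
    exact h1)
  have hχ1 : χ 1 = ξ 1 := by
    exact hχN 1
  have hres := rel_restrict_eq_smul hDT hψT hξ h1 hinvT
  have hev := congrFun hres 1
  have hev' : ψT 1 = classInner (resFun hDT ψT) ξ * ξ 1 := hev
  have hdeg' : ψT 1 = ξ 1 := hdeg.trans hχ1
  rw [hdeg'] at hev'
  have hξ1 : ξ 1 ≠ 0 := irr_one_ne_zero hξ
  have : (classInner (resFun hDT ψT) ξ - 1) * ξ 1 = 0 := by
    rw [sub_mul, one_mul, ← hev', sub_self]
  rcases mul_eq_zero.mp this with h5 | h5
  · exact sub_eq_zero.mp h5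
  · exact absurd h5 hξ1

end Cfsg.Agent.Lib.Helper16.FR
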