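import Cfsg.Agent.Lib.Helper15.FullyRam
import Cfsg.Agent.Lib.Helper15.RelGl1
import Cfsg.Agent.S0886

/-!
# Fully ramified characters farm: piece D1 (degree divisibility)
-/

set_option autoImplicit false

namespace Cfsg.Agent.Lib.Helper16.FR

open Cfsg Cfsg.Agent.Lib Cfsg.Agent.Lib.Helper15
open scoped ComplexConjugate

variable {Y : Type*} [Group Y] [Fintype Y]

/-- a constituent of a character whose restriction is a multiple of `θ` lies over `θ` -/
theorem over_of_constituent' {Z D : Subgroup Y} [Fintype Z] [Fintype D]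
    (hZD : Z ≤ D) {θ : Z → ℂ} (hθ : IsIrrCharacter Z θ)
    {Φ : D → ℂ} (hΦ : IsCharacter D Φ) {c : ℂ} (hΦθ : resFun hZD Φ = c • θ)
    {χ : D → ℂ} (hχ : IsIrrCharacter D χ) (h : classInner Φ χ ≠ 0) :
    classInner (resFun hZD χ) θ ≠ 0 := by
  have hch : IsCharacter Z (resFun hZD χ) := char_resFun hZD (irr_char hχ)
  have hne : resFun hZD χ ≠ 0 := by
    intro h0
    have := congrFun h0 1
    exact irr_one_ne_zero hχ this
  obtain ⟨φ, hφ, hin⟩ := exists_constituent hch hne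
  have h1 : classInner (resFun hZD Φ) φ ≠ 0 :=
    inner_ne_zero_of_constituent (resFunLin hZD) (fun γ hγ => char_resFun hZD hγ) hΦ hχ h
      (irr_char hφ) hin
  rw [hΦθ, classInner_smul_left] at h1
  have h2 : classInner θ φ ≠ 0 := fun h0 => h1 (by rw [h0, mul_zero])
  have h3 : θ = φ := irr_eq_of_inner_ne_zero hθ hφ h2
  rw [h3]
  exact hin

/-- PIECE D1 (degree divisibility). -/
theorem degree_dvd {Z D S : Subgroup Y} [Z.Normal] [D.Normal] [Fintype Z] [Fintype D]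
    (hZD : Z ≤ D) {θ : Z → ℂ} (hθ : IsIrrCharacter Z θ)
    {ξ : D → ℂ}
    (hconj : ∀ ξ' : D → ℂ, IsIrrCharacter D ξ' → classInner (resFun hZD ξ') θ ≠ 0 →
      ∃ k : S, ξ' = cj D (k : Y) ξ)
    {Φ : D → ℂ} (hΦ : IsCharacter D Φ) {c : ℂ} (hΦθ : resFun hZD Φ = c • θ) :
    ∃ A : ℕ, Φ 1 = A * ξ 1 := by
  classical
  haveI := Fintype.ofFinite (IrrCharacter D)
  have hexp := cf_expansion (char_cf hΦ)
  choose a ha using fun χ : IrrCharacter D => inner_nat hΦ (irr_char χ.2)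
  refine ⟨∑ χ, a χ, ?_⟩
  have h1 : Φ 1 = ∑ χ : IrrCharacter D, classInner Φ χ * (χ : D → ℂ) 1 := by
    conv_lhs => rw [hexp]
    simp [Finset.sum_apply]
  rw [h1]
  push_cast
  rw [Finset.sum_mul]
  refine Finset.sum_congr rfl fun χ _ => ?_
  rw [ha χ]
  by_cases h0 : a χ = 0
  · rw [h0]; simp
  · have hne : classInner Φ (χ : D → ℂ) ≠ 0 := by
      rw [ha χ]
      exact_mod_cast h0
    obtain ⟨k, hk⟩ := hconj χ χ.2 (over_of_constituent' hZD hθ hΦ hΦθ χ.2 hne)
    rw [hk, cj_apply_one]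

end Cfsg.Agent.Lib.Helper16.FR
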