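import Mathlib
import Cfsg.Agent.Lib.Helper16.HeightT
import Cfsg.Agent.Lib.Helper15.CharTools

/-!
# Constituents of induced characters in a block (helper16)
-/

set_option autoImplicit false

namespace Cfsg.Agent.Lib.Helper16

open Cfsg Cfsg.Agent.Lib.Helper78 Cfsg.Agent.Lib

variable {G : Type*} [Group G] [Fintype G] {M : Ideal AlgInt} {p : ℕ}

/-- If the central character of `ζ ∈ Irr(H)` does not vanish on the restriction of the idempotent of
`B` and `|G:H| ζ(1)` is prime to `p`, then `ζ^G` has a constituent of `p'`-degree in `B`. -/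
theorem exists_constituent_of_unit (hM : IsPModular p M) (H : Subgroup G) [Fintype H]
    {B : Set (IrrCharacter G)} (hB : IsPBlock M B) (ζ : IrrCharacter H)
    (huU : ¬ MemLocalIdeal M (omega (ζ : H → ℂ) (fun x : H => blockCoeff B x)))
    (hdeg : ¬ p ∣ H.index * charDegree (ζ : H → ℂ)) :
    ∃ χ ∈ B, ¬ p ∣ charDegree (χ : G → ℂ) ∧ classInner (indFun H (ζ : H → ℂ)) (χ : G → ℂ) ≠ 0 := by
  classical
  have hMp := pmod_isPrime hM
  have hp := hM.1
  have hcl := blockCoeff_isClassFunction B
  have hR := memLocalRing_blockCoeff hMp hB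
  set u := omega (ζ : H → ℂ) (fun x : H => blockCoeff B x) with hu
  have huR : MemLocalRing M u :=
    memLocalRing_omega hMp ζ (fun g x => hcl g x) (fun x => hR x)
  have hchar : IsCharacter G (indFun H (ζ : H → ℂ)) :=
    Helper15.char_indFun H (Helper74.IrrCharacter.isCharacter ζ)
  choose n hn using fun χ : IrrCharacter G => Helper74.IsCharacter.classInner_irr_nat hchar χ
  set S : ℕ := ∑ χ : IrrCharacter G, if χ ∈ B then charDegree (χ : G → ℂ) * n χ else 0 with hS
  have hcG : (Nat.card G : ℂ) ≠ 0 := by exact_mod_cast Nat.card_pos.ne'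
  have hcH : (Nat.card H : ℂ) ≠ 0 := by exact_mod_cast Nat.card_pos.ne'
  have hζ1 : (charDegree (ζ : H → ℂ) : ℂ) ≠ 0 := by exact_mod_cast (irr_charDegree_pos ζ).ne'
  have hidx : (H.index : ℂ) = (Nat.card G : ℂ) / (Nat.card H : ℂ) := by
    rw [eq_div_iff hcH]
    exact_mod_cast H.index_mul_card
  have key : (S : ℂ) = ((H.index * charDegree (ζ : H → ℂ) : ℕ) : ℂ) * u := by
    have e1 : u * (charDegree (ζ : H → ℂ) : ℂ) = ∑ h : H, blockCoeff B h * (ζ : H → ℂ) h := by
      rw [hu]
      unfold omega
      rw [irr_one_eq, div_mul_cancel₀ _ hζ1]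
    have e2 : ∑ h : H, blockCoeff B h * (ζ : H → ℂ) h =
        (Nat.card G : ℂ)⁻¹ * ((Nat.card H : ℂ) * (S : ℂ)) := by
      simp only [blockCoeff_eq_sum, ← Nat.card_eq_fintype_card]
      simp only [mul_assoc, ← Finset.mul_sum]
      congr 1
      simp only [Finset.sum_mul]
      rw [Finset.sum_comm, hS]
      push_cast
      rw [Finset.mul_sum]
      refine Finset.sum_congr rfl fun χ _ => ?_
      split_ifs with hχ
      · have e3 := hn χ
        rw [Helper15.classInner_indFun_left H _ _ (irr_isClassFunction χ)] at e3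
        unfold classInner at e3
        have e4 : ∑ h : H, (ζ : H → ℂ) h * (starRingEnd ℂ) ((χ : G → ℂ) h) =
            (Nat.card H : ℂ) * (n χ : ℂ) := by
          rw [← e3]; field_simp
        simp only [one_mul]
        rw [irr_one_eq]
        calc ∑ h : H, (charDegree (χ : G → ℂ) : ℂ) * (starRingEnd ℂ) ((χ : G → ℂ) h) * (ζ : H → ℂ) h
            = (charDegree (χ : G → ℂ) : ℂ) *
              ∑ h : H, (ζ : H → ℂ) h * (starRingEnd ℂ) ((χ : G → ℂ) h) := by
              rw [Finset.mul_sum]
              refine Finset.sum_congr rfl fun h _ => by ring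
          _ = _ := by rw [e4]; ring
      · simp
    push_cast
    rw [hidx, mul_assoc, mul_comm (charDegree (ζ : H → ℂ) : ℂ) u, e1, e2]
    field_simp
  by_contra hcon
  push Not at hcon
  have hdvd : p ∣ S := by
    rw [hS]
    refine Finset.dvd_sum fun χ _ => ?_
    split_ifs with hχ
    · by_cases h0 : p ∣ charDegree (χ : G → ℂ)
      · exact Dvd.dvd.mul_right h0 _
      · have := hcon χ hχ h0
        rw [hn χ] at this
        have hn0 : n χ = 0 := by exact_mod_cast this
        rw [hn0, mul_zero]
        exact dvd_zero _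
    · exact dvd_zero _
  -- `S` lies in the ideal, but `|G:H| ζ(1) u` is a unit
  apply huU
  have hSI : MemLocalIdeal M (S : ℂ) := by
    obtain ⟨c, hc⟩ := hdvd
    rw [hc]
    push_cast
    exact MemLocalIdeal.mul_right hMp (memLocalIdeal_p hM) (memLocalRing_natCast hMp c)
  rw [key, memLocalIdeal_mul_iff hMp (memLocalRing_natCast hMp _) huR] at hSI
  rcases hSI with h | h
  · exact absurd ((memLocalIdeal_natCast_iff hM _).1 h) hdeg
  · exact h

end Cfsg.Agent.Lib.Helper16
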