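import Mathlib
import Cfsg.Agent.Lib.Helper16.Rotation

/-!
# The `p`-power map on a modular group algebra (helper16)
-/

set_option autoImplicit false

namespace Cfsg.Agent.Lib.Helper16

open MonoidAlgebra

section

variable {S G : Type*} [CommRing S] [Group G] [Fintype G]

/-- In characteristic `p`, the coefficient of `1` in `x ^ (p ^ n)`. -/
theorem coeff_one_pow_char [DecidableEq G] (p : ℕ) [Fact p.Prime] [CharP S p]
    (x : MonoidAlgebra S G) (n : ℕ) :
    (x ^ (p ^ n)).coeff 1 = ∑ g : G, if g ^ (p ^ n) = 1 then (x.coeff g) ^ (p ^ n) else 0 := by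
  classical
  have hp := (Fact.out : p.Prime)
  set q := p ^ n with hq
  have : NeZero q := ⟨(pow_pos hp.pos _).ne'⟩
  set φ : G → S := fun g => if g = 1 then 1 else 0 with hφ
  have hφc : ∀ g h : G, φ (h⁻¹ * g * h) = φ g := by
    intro g h
    simp only [hφ]
    have : h⁻¹ * g * h = 1 ↔ g = 1 := by
      constructor
      · intro h1
        calc g = h * (h⁻¹ * g * h) * h⁻¹ := by group
          _ = 1 := by rw [h1]; group
      · rintro rfl; group
    simp only [this]
  have h1 := sum_coeff_pow_mul x q φ
  have h2 : ∑ g, (x ^ q).coeff g * φ g = (x ^ q).coeff 1 := by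
    simp [hφ]
  rw [h2] at h1
  rw [h1]
  set w : (Fin q → G) → S := fun f => (∏ i, x.coeff (f i)) * φ (List.ofFn f).prod with hw
  have hwrot : ∀ f, w (rot q G f) = w f := by
    intro f
    simp only [hw]
    rw [prod_rot, hφc]
    congr 1
    exact Equiv.prod_comp (Equiv.addRight (1 : Fin q)) (fun i => x.coeff (f i))
  have hinv : ∀ (γ : Subgroup.zpowers (rot q G)) (f : Fin q → G), w (γ • f) = w f := by
    let H : Subgroup (Equiv.Perm (Fin q → G)) :=
      { carrier := {γ | ∀ f, w (γ f) = w f}
        mul_mem' := by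
          intro a b ha hb f
          rw [Equiv.Perm.mul_apply, ha, hb]
        one_mem' := by intro f; rfl
        inv_mem' := by
          intro a ha f
          have := ha (a⁻¹ f)
          rw [show a (a⁻¹ f) = f from (Equiv.eq_symm_apply a).mp rfl] at this
          exact this.symm }
    have hle : Subgroup.zpowers (rot q G) ≤ H := by
      rw [Subgroup.zpowers_le]; exact hwrot
    intro γ f
    exact hle γ.2 f
  have hrotq : (rot q G) ^ q = 1 := by
    ext f i
    rw [← Equiv.Perm.iterate_eq_pow, rot_iterate]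
    simp
  have hΓ : IsPGroup p (Subgroup.zpowers (rot q G)) := by
    obtain ⟨j, -, hj⟩ := (Nat.dvd_prime_pow hp).1 (orderOf_dvd_of_pow_eq_one hrotq)
    exact IsPGroup.of_card (n := j) (by rw [Nat.card_zpowers, hj])
  have hA : ∀ a : S, p • a = 0 := by
    intro a
    rw [nsmul_eq_mul, CharP.cast_eq_zero, zero_mul]
  rw [sum_eq_sum_fixedPoints p hΓ hA w hinv]
  have hfix : ∀ f : Fin q → G, f ∈ MulAction.fixedPoints (Subgroup.zpowers (rot q G)) (Fin q → G) ↔
      ∀ i, f i = f 0 := by
    intro f
    constructor
    · intro hf i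
      have h3 : rot q G f = f := hf ⟨rot q G, Subgroup.mem_zpowers _⟩
      have h4 : ∀ k : ℕ, (rot q G)^[k] f = f := by
        intro k
        induction k with
        | zero => rfl
        | succ k ih => rw [Function.iterate_succ_apply, h3, ih]
      have h5 := congrFun (h4 i.val) 0
      rw [rot_iterate, zero_add] at h5
      have h6 : Fin.ofNat q i.val = i := by
        apply Fin.ext; simp [Fin.ofNat, Nat.mod_eq_of_lt i.isLt]
      rw [h6] at h5
      exact h5
    · intro hf γ
      have hle : Subgroup.zpowers (rot q G) ≤ MulAction.stabilizer (Equiv.Perm (Fin q → G)) f := by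
        rw [Subgroup.zpowers_le, MulAction.mem_stabilizer_iff]
        funext i
        show f (i + 1) = f i
        rw [hf (i + 1), hf i]
      exact hle γ.2
  refine Finset.sum_bij' (fun f _ => f 0) (fun g _ => fun _ => g) ?_ ?_ ?_ ?_ ?_
  · intro f _; exact Finset.mem_univ _
  · intro g _
    rw [Finset.mem_filter]
    exact ⟨Finset.mem_univ _, (hfix _).2 fun _ => rfl⟩
  · intro f hf
    rw [Finset.mem_filter] at hf
    funext i
    exact ((hfix f).1 hf.2 i).symm
  · intro g _; rfl
  · intro f hf
    rw [Finset.mem_filter] at hf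
    have hc : f = fun _ => f 0 := funext fun i => (hfix f).1 hf.2 i
    simp only [hw]
    rw [hc]
    simp only [Finset.prod_const, Finset.card_univ, Fintype.card_fin, List.ofFn_const,
      List.prod_replicate, hφ]
    split_ifs <;> simp

/-- Külshammer's adjoint of the Frobenius map, evaluated at `1`. -/
theorem sum_coeff_pow_eq [DecidableEq G] (p : ℕ) [Fact p.Prime] [CharP S p]
    (z : MonoidAlgebra S G) (h : G) (hz : Commute z (single h⁻¹ 1)) (n : ℕ) :
    (∑ x : G, if x ^ (p ^ n) = 1 then z.coeff (x * h) else 0) ^ (p ^ n) =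
      (z ^ (p ^ n)).coeff (h ^ (p ^ n)) := by
  have h1 := coeff_one_pow_char p (z * single h⁻¹ 1) n
  rw [hz.mul_pow, single_pow, one_pow, coeff_mul_single_apply, mul_one, one_mul, inv_pow,
    inv_inv] at h1
  rw [h1, sum_pow_char_pow]
  refine Finset.sum_congr rfl fun x _ => ?_
  rw [coeff_mul_single_apply, mul_one, inv_inv]
  split_ifs
  · rfl
  · rw [zero_pow (pow_pos (Fact.out : p.Prime).pos n).ne']

end

end Cfsg.Agent.Lib.Helper16
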