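import Mathlib
import Cfsg.Agent.Lib.Helper16.Kulshammer
import Cfsg.Agent.Lib.Helper16.HeightT
import Cfsg.Agent.Lib.Helper16.FirstMain

/-!
# Külshammer's formula for the principal block idempotent (helper16)
-/

set_option autoImplicit false

namespace Cfsg.Agent.Lib.Helper16

open Cfsg Cfsg.Agent.Lib.Helper78
open scoped ComplexConjugate

variable {G : Type*} [Group G] [Fintype G]
variable (M : Ideal AlgInt) [hMm : M.IsMaximal] (p : ℕ) [Fact p.Prime] [CharP (FM M) p]

theorem blockHeight_trivIrr (B : Set (IrrCharacter G)) :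
    blockHeight p B ((trivIrr G : IrrCharacter G) : G → ℂ) = 0 := by
  unfold blockHeight
  have : charDegree ((trivIrr G : IrrCharacter G) : G → ℂ) = 1 := by
    simp [charDegree, trivIrr]
  rw [this]; simp

open Classical in
/-- number of `p`-regular elements -/
noncomputable def nReg (p : ℕ) (G : Type*) [Group G] [Fintype G] : ℕ :=
  (Finset.univ.filter fun g : G => ¬ p ∣ orderOf g).card

theorem omega_trivIrr_rcF :
    omega ((trivIrr G : IrrCharacter G) : G → ℂ) (rcF p ((trivIrr G : IrrCharacter G) : G → ℂ)) =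
      (nReg p G : ℂ) := by
  classical
  unfold omega nReg
  simp only [trivIrr, rcF, regPart, mul_one, div_one, map_one]
  rw [Finset.card_filter]
  push_cast
  refine Finset.sum_congr rfl fun g _ => ?_
  split_ifs <;> simp_all

omit hMm [CharP (FM M) p] in
theorem nReg_unit (hM : IsPModular p M) : ¬ MemLocalIdeal M (nReg p G : ℂ) := by
  rw [← omega_trivIrr_rcF]
  exact omega_rcF_unit hM isPBlock_principalBlock (trivIrr_mem_principalBlock (pmod_isPrime hM))
    (blockHeight_trivIrr p _)

/-- the sum of the `p`-regular elements -/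
noncomputable def regSum : Zc (FM M) G :=
  ⟨redFun M (rcF p ((trivIrr G : IrrCharacter G) : G → ℂ)),
    redFun_mem_center (rcF_isClassFunction p (irr_isClassFunction _))⟩

open Classical in
theorem regSum_coeff (g : G) : (regSum M p : Zc (FM M) G).1.coeff g =
    if p ∣ orderOf g then 0 else 1 := by
  show redC M (rcF p ((trivIrr G : IrrCharacter G) : G → ℂ) g) = _
  simp only [rcF, regPart, trivIrr, map_one]
  split_ifs <;> simp

open Classical in
theorem lam_regSum (hM : IsPModular p M) (χ : IrrCharacter G) :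
    lam M χ (regSum M p) = if χ ∈ principalBlock M G then (nReg p G : FM M) else 0 := by
  have hM' := pmod_isPrime hM
  have h1 : ∀ ψ : IrrCharacter G, lam M ψ (regSum M p) =
      redC M (omega (ψ : G → ℂ) (rcF p ((trivIrr G : IrrCharacter G) : G → ℂ))) := fun ψ =>
    lamFun_redFun ψ (rcF_isClassFunction p (irr_isClassFunction _)) (rcF_mem hM' p _)
  split_ifs with hχ
  · rw [lam_eq_of_mem_block M isPBlock_principalBlock hχ (trivIrr_mem_principalBlock hM'), h1,
      omega_trivIrr_rcF, redC_natCast]
  · rw [h1, omega_rcF_eq_zero hM isPBlock_principalBlock (trivIrr_mem_principalBlock hM') hχ,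
      redC_zero]

open Classical in
/-- **Külshammer.**  The coefficient of the principal block idempotent at a `p`-regular element. -/
theorem eB_principal_coeff (hM : IsPModular p M) (g : G) (hg : ¬ p ∣ orderOf g) :
    ∃ n : ℕ, (Nat.card G).factorization p ≤ n ∧
    (eB M (principalBlock M G)).1.coeff g = (nReg p G : FM M)⁻¹ *
      ((Finset.univ.filter fun x : G => x ^ (p ^ n) = 1 ∧ ¬ p ∣ orderOf (x * g)).card : FM M) := by
  have hp : p.Prime := hM.1
  have hM' := pmod_isPrime hM
  have hB := isPBlock_principalBlock (M := M) (G := G)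
  have hn0 : (nReg p G : FM M) ≠ 0 := by
    rw [← redC_natCast, Ne, redC_eq_zero_iff (memLocalRing_natCast hM' _)]
    exact nReg_unit M p hM
  set e := eB M (principalBlock M G) with he
  set v : Zc (FM M) G := (nReg p G : FM M)⁻¹ • regSum M p with hv
  have hlam : ∀ χ : IrrCharacter G, lam M χ (v - e) = 0 := by
    intro χ
    rw [map_sub, hv, map_smul, lam_regSum M p hM, he, lam_eB M hB]
    split_ifs
    · rw [smul_eq_mul, inv_mul_cancel₀ hn0, sub_self]
    · simp
  obtain ⟨N, hN⟩ := isNilpotent_of_lam_eq_zero M hlam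
  set m := orderOf g with hm
  set n := Nat.totient m * ((Nat.card G).factorization p + N + 1) with hn
  have hmpos : 0 < m := orderOf_pos g
  have htot : 1 ≤ Nat.totient m := Nat.totient_pos.2 hmpos
  have hnge : (Nat.card G).factorization p + N + 1 ≤ n := by
    rw [hn]; exact Nat.le_mul_of_pos_left _ htot
  refine ⟨n, by omega, ?_⟩
  haveI : CharP (Zc (FM M) G) p := charP_of_injective_algebraMap' (FM M) p
  have hq : N ≤ p ^ n := by
    have := Nat.lt_pow_self (n := n) hp.one_lt
    omega
  have hvq : v ^ (p ^ n) = e := by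
    have h1 : v = e + (v - e) := (add_sub_cancel e v).symm
    rw [h1, add_pow_char_pow, pow_eq_zero_of_le hq hN, add_zero]
    exact IsIdempotentElem.pow_eq (eB_mul_self M _ hB) (pow_pos hp.pos n).ne'
  have hgq : g ^ (p ^ n) = g := by
    have h1 : p ^ n ≡ 1 [MOD m] := by
      rw [hn, pow_mul]
      have := (Nat.ModEq.pow_totient ((Nat.Prime.coprime_iff_not_dvd hp).2 hg)).pow
        ((Nat.card G).factorization p + N + 1)
      simpa using this
    have h2 : g ^ (p ^ n) = g ^ 1 := (pow_eq_pow_iff_modEq).2 h1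
    rw [h2, pow_one]
  have hcomm : Commute v.1 (MonoidAlgebra.single g⁻¹ 1) :=
    (Subalgebra.mem_center_iff.1 v.2 _).symm
  have hK := sum_coeff_pow_eq p v.1 g hcomm n
  have hvq' : v.1 ^ (p ^ n) = e.1 := by
    rw [← hvq]; rfl
  rw [hvq', hgq] at hK
  rw [← hK]
  have hcoef : ∀ y : G, v.1.coeff y = (nReg p G : FM M)⁻¹ * (if p ∣ orderOf y then 0 else 1) := by
    intro y
    rw [← regSum_coeff M p y]
    rfl
  have hsum : (∑ x : G, if x ^ (p ^ n) = 1 then v.1.coeff (x * g) else 0) =
      (nReg p G : FM M)⁻¹ *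
      ((Finset.univ.filter fun x : G => x ^ (p ^ n) = 1 ∧ ¬ p ∣ orderOf (x * g)).card : FM M) := by
    rw [Finset.card_filter, Nat.cast_sum, Finset.mul_sum]
    refine Finset.sum_congr rfl fun x _ => ?_
    rw [hcoef]
    by_cases h1 : x ^ (p ^ n) = 1 <;> by_cases h2 : p ∣ orderOf (x * g) <;> simp [h1, h2]
  rw [hsum, mul_pow, inv_pow]
  have hfrob : ∀ k : ℕ, ((k : FM M)) ^ (p ^ n) = k := by
    intro k
    have := map_natCast (iterateFrobenius (FM M) p n) k
    rwa [iterateFrobenius_def] at this
  rw [hfrob, hfrob]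

end Cfsg.Agent.Lib.Helper16
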