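import Mathlib
import Cfsg.Agent.Lib.Helper16.PrincipalIdem
import Cfsg.Agent.Lib.Helper16.Green
import Cfsg.Agent.Lib.Helper16.OrbitSum

/-!
# The principal block idempotent on the centralizer of a Sylow subgroup (helper16)
-/

set_option autoImplicit false

namespace Cfsg.Agent.Lib.Helper16

open Cfsg Cfsg.Agent.Lib.Helper78

section fixed

variable {G : Type*} [Group G] [Fintype G]

open Classical in
theorem sum_subtype_eq_sum_ite {A : Type*} [AddCommMonoid A] (X : Set G) (f : G → A) :
    ∑ x : X, f x = ∑ w : G, (if w ∈ X then f w else 0) := by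
  rw [← Finset.sum_filter, Finset.sum_subtype (p := fun w => w ∈ X)]
  intro x
  simp

open Classical in
/-- In characteristic `p`, a sum over a subset stable under conjugation by a `p`-subgroup `T` of a
`T`-invariant function is the sum over the elements centralized by `T`. -/
theorem sum_subset_eq_sum_centralizer {A : Type*} [AddCommMonoid A] (p : ℕ) [Fact p.Prime]
    (hA : ∀ a : A, p • a = 0) (T : Subgroup G) (hT : IsPGroup p T) (X : Set G)
    (hX : ∀ t ∈ T, ∀ x ∈ X, t * x * t⁻¹ ∈ X) (f : G → A)
    (hf : ∀ t ∈ T, ∀ x ∈ X, f (t * x * t⁻¹) = f x) :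
    ∑ w : G, (if w ∈ X then f w else 0) =
      ∑ w : G, (if w ∈ X ∧ w ∈ Subgroup.centralizer (T : Set G) then f w else 0) := by
  letI := conjActOn T X hX
  rw [← sum_subtype_eq_sum_ite, sum_eq_sum_fixedPoints (Γ := T) p hT hA (fun x : X => f x) (fun t x => hf t t.2 x x.2)]
  have hfix : ∀ x : X, x ∈ MulAction.fixedPoints T X ↔
      (x : G) ∈ Subgroup.centralizer (T : Set G) := by
    intro x
    rw [MulAction.mem_fixedPoints, Subgroup.mem_centralizer_iff]
    constructor
    · intro h t ht
      have h2 : t * (x : G) * t⁻¹ = (x : G) := congrArg Subtype.val (h ⟨t, ht⟩)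
      rw [mul_inv_eq_iff_eq_mul] at h2
      exact h2
    · intro h t
      apply Subtype.ext
      show (t : G) * (x : G) * (t : G)⁻¹ = (x : G)
      rw [mul_inv_eq_iff_eq_mul]
      exact h t t.2
  have h2 : ∑ w : G, (if w ∈ X ∧ w ∈ Subgroup.centralizer (T : Set G) then f w else 0) =
      ∑ w : G, (if w ∈ X then (if w ∈ Subgroup.centralizer (T : Set G) then f w else 0) else 0) := by
    refine Finset.sum_congr rfl fun w _ => ?_
    by_cases h3 : w ∈ X <;> by_cases h4 : w ∈ Subgroup.centralizer (T : Set G) <;> simp [h3, h4]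
  rw [h2, ← sum_subtype_eq_sum_ite X
    (fun w => if w ∈ Subgroup.centralizer (T : Set G) then f w else 0), Finset.sum_filter]
  refine Finset.sum_congr rfl fun x _ => ?_
  simp only [hfix]

end fixed

section principal

variable {G : Type*} [Group G] [Fintype G]
variable (M : Ideal AlgInt) [hMm : M.IsMaximal] (p : ℕ) [Fact p.Prime] [CharP (FM M) p]

theorem nReg_ne_zero (hM : IsPModular p M) : (nReg p G : FM M) ≠ 0 := by
  rw [← redC_natCast, Ne, redC_eq_zero_iff (memLocalRing_natCast (pmod_isPrime hM) _)]
  exact nReg_unit M p hM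

/-- a `p`-element centralizing a Sylow `p`-subgroup lies in it -/
theorem mem_sylow_of_mem_centralizer (P : Sylow p G) {x : G} {n : ℕ} (hx : x ^ (p ^ n) = 1)
    (hxc : x ∈ Subgroup.centralizer ((P : Subgroup G) : Set G)) : x ∈ (P : Subgroup G) := by
  have hz : IsPGroup p (Subgroup.zpowers x) := by
    rw [IsPGroup.iff_card, Nat.card_zpowers]
    obtain ⟨j, -, hj⟩ := (Nat.dvd_prime_pow (Fact.out : p.Prime)).1 (orderOf_dvd_of_pow_eq_one hx)
    exact ⟨j, hj⟩
  have hle : Subgroup.zpowers x ≤ Subgroup.normalizer ((P : Subgroup G) : Set G) := by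
    rw [Subgroup.zpowers_le]
    exact Subgroup.centralizer_le_normalizer _ hxc
  have hsup : IsPGroup p (Subgroup.zpowers x ⊔ (P : Subgroup G) : Subgroup G) :=
    IsPGroup.to_sup_of_normal_right' hz P.isPGroup' hle
  have := P.is_maximal' hsup le_sup_right
  rw [← this]
  exact le_sup_left (a := Subgroup.zpowers x) (Subgroup.mem_zpowers x)

/-- the coefficient of the principal block idempotent at a `p`-regular element centralizing a Sylow
`p`-subgroup -/
theorem eB_principal_coeff_centralizer (hM : IsPModular p M) (P : Sylow p G) {g : G}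
    (hg : ¬ p ∣ orderOf g) (hgc : g ∈ Subgroup.centralizer ((P : Subgroup G) : Set G)) :
    (eB M (principalBlock M G)).1.coeff g = (nReg p G : FM M)⁻¹ := by
  classical
  have hp : p.Prime := hM.1
  obtain ⟨n, -, h⟩ := eB_principal_coeff M p hM g hg
  rw [h]
  have hA : ∀ a : FM M, p • a = 0 := fun a => by
    rw [nsmul_eq_mul, CharP.cast_eq_zero, zero_mul]
  have key : ((Finset.univ.filter fun x : G => x ^ (p ^ n) = 1 ∧ ¬ p ∣ orderOf (x * g)).card : FM M)
      = 1 := by
    rw [Finset.card_filter]
    push_cast
    have h1 := sum_subset_eq_sum_centralizer p hA (P : Subgroup G) P.isPGroup' Set.univ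
      (fun _ _ _ _ => Set.mem_univ _)
      (fun x : G => if x ^ (p ^ n) = 1 ∧ ¬ p ∣ orderOf (x * g) then (1 : FM M) else 0)
      (by
        intro t ht x _
        have e1 : (t * x * t⁻¹) ^ (p ^ n) = 1 ↔ x ^ (p ^ n) = 1 := by
          rw [conj_pow]
          constructor
          · intro h
            have : x ^ (p ^ n) = t⁻¹ * (t * x ^ (p ^ n) * t⁻¹) * t := by group
            rw [this, h]; group
          · intro h; rw [h]; group
        have e2 : orderOf (t * x * t⁻¹ * g) = orderOf (x * g) := by
          have hc : t * g = g * t := Subgroup.mem_centralizer_iff.1 hgc t ht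
          have : t * x * t⁻¹ * g = t * (x * g) * t⁻¹ := by
            have hc' : t⁻¹ * g = g * t⁻¹ := by
              calc t⁻¹ * g = t⁻¹ * (g * t) * t⁻¹ := by group
                _ = t⁻¹ * (t * g) * t⁻¹ := by rw [hc]
                _ = g * t⁻¹ := by group
            calc t * x * t⁻¹ * g = t * x * (t⁻¹ * g) := by group
              _ = t * x * (g * t⁻¹) := by rw [hc']
              _ = t * (x * g) * t⁻¹ := by group
          rw [this]
          exact (MulAut.conj t).orderOf_eq (x * g)
        simp only [e1, e2])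
    simp only [Set.mem_univ, if_true, true_and] at h1
    rw [h1, Finset.sum_eq_single 1]
    · rw [if_pos (Subgroup.one_mem _), if_pos]
      exact ⟨one_pow _, by rwa [one_mul]⟩
    · intro x _ hx1
      by_cases hxc : x ∈ Subgroup.centralizer ((P : Subgroup G) : Set G)
      · rw [if_pos hxc, if_neg]
        rintro ⟨hx, hxg⟩
        apply hx1
        have hxP := mem_sylow_of_mem_centralizer p P hx hxc
        have hcomm : Commute x g := Subgroup.mem_centralizer_iff.1 hgc x hxP
        set m := orderOf (x * g) * orderOf g with hm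
        have h2 : x ^ m = 1 := by
          have h3 : (x * g) ^ m = 1 := by rw [hm, pow_mul, pow_orderOf_eq_one, one_pow]
          have h4 : g ^ m = 1 := by rw [hm, mul_comm, pow_mul, pow_orderOf_eq_one, one_pow]
          rw [hcomm.mul_pow, h4, mul_one] at h3
          exact h3
        have hcop : Nat.Coprime (p ^ n) m := by
          apply Nat.Coprime.pow_left
          rw [hm]
          exact Nat.Coprime.mul_right ((Nat.Prime.coprime_iff_not_dvd hp).2 hxg)
            ((Nat.Prime.coprime_iff_not_dvd hp).2 hg)
        have h5 : orderOf x ∣ Nat.gcd (p ^ n) m :=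
          Nat.dvd_gcd (orderOf_dvd_of_pow_eq_one hx) (orderOf_dvd_of_pow_eq_one h2)
        rw [hcop, Nat.dvd_one, orderOf_eq_one_iff] at h5
        exact h5
      · rw [if_neg hxc]
    · intro h; exact absurd (Finset.mem_univ _) h
  rw [key, mul_one]

/-- the sum of the coefficients of the principal block idempotent over a subgroup containing a Sylow
`p`-subgroup does not vanish -/
theorem sum_eB_principal_coeff_ne_zero (hM : IsPModular p M) (P : Sylow p G) (H : Subgroup G)
    [Fintype H] (hPH : (P : Subgroup G) ≤ H) :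
    ∑ h : H, (eB M (principalBlock M G)).1.coeff (h : G) ≠ 0 := by
  classical
  have hp : p.Prime := hM.1
  have hA : ∀ a : FM M, p • a = 0 := fun a => by
    rw [nsmul_eq_mul, CharP.cast_eq_zero, zero_mul]
  set e := (eB M (principalBlock M G)).1 with he
  have hcl : ∀ t x : G, e.coeff (t * x * t⁻¹) = e.coeff x := by
    intro t x
    exact (mem_center_iff_coeff.1 (eB M (principalBlock M G)).2) x t
  have h1 : ∑ h : H, e.coeff (h : G) = ∑ w : G, (if w ∈ (H : Set G) then e.coeff w else 0) := by
    rw [← sum_subtype_eq_sum_ite (H : Set G) (fun w => e.coeff w)]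
    exact Finset.sum_congr (by ext; simp) fun _ _ => rfl
  rw [h1, sum_subset_eq_sum_centralizer p hA (P : Subgroup G) P.isPGroup' (H : Set G)
    (fun t ht x hx => H.mul_mem (H.mul_mem (hPH ht) hx) (H.inv_mem (hPH ht)))
    (fun w => e.coeff w) (fun t _ x _ => hcl t x)]
  set X : Subgroup G := H ⊓ Subgroup.centralizer ((P : Subgroup G) : Set G) with hX
  have h2 : ∑ w : G, (if w ∈ (H : Set G) ∧ w ∈ Subgroup.centralizer ((P : Subgroup G) : Set G)
      then e.coeff w else 0) = (nReg p G : FM M)⁻¹ * (nReg p X : FM M) := by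
    have h3 : (nReg p X : FM M) = ∑ w : G, (if w ∈ (H : Set G) ∧
        w ∈ Subgroup.centralizer ((P : Subgroup G) : Set G) then
          (if ¬ p ∣ orderOf w then (1 : FM M) else 0) else 0) := by
      unfold nReg
      rw [Finset.card_filter]
      push_cast
      have h4 := sum_subtype_eq_sum_ite (X : Set G)
        (fun w => if ¬ p ∣ orderOf w then (1 : FM M) else 0)
      have h5 : ∀ w : G, w ∈ (X : Set G) ↔
          (w ∈ (H : Set G) ∧ w ∈ Subgroup.centralizer ((P : Subgroup G) : Set G)) := fun w => by
        rw [hX]; exact Subgroup.mem_inf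
      simp only [h5] at h4
      rw [← h4]
      refine Finset.sum_congr (by ext; simp) fun w _ => ?_
      rw [Subgroup.orderOf_coe]
    rw [h3, Finset.mul_sum]
    refine Finset.sum_congr rfl fun w _ => ?_
    by_cases hw : w ∈ (H : Set G) ∧ w ∈ Subgroup.centralizer ((P : Subgroup G) : Set G)
    · rw [if_pos hw, if_pos hw]
      by_cases hr : p ∣ orderOf w
      · rw [if_neg (not_not.2 hr), mul_zero, he, eB_coeff,
          blockCoeff_eq_zero_of_singular hM isPBlock_principalBlock w hr]
        exact (redC_eq_zero_iff (memLocalRing_zero (pmod_isPrime hM))).2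
          (memLocalIdeal_zero (pmod_isPrime hM))
      · rw [if_pos hr, mul_one]
        exact eB_principal_coeff_centralizer M p hM P hr hw.2
    · rw [if_neg hw, if_neg hw, mul_zero]
  rw [h2]
  exact mul_ne_zero (inv_ne_zero (nReg_ne_zero M p hM)) (nReg_ne_zero M p hM)

end principal

end Cfsg.Agent.Lib.Helper16
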