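import Mathlib
import Cfsg.Agent.S4488

/-!
# `p`-rationality and invariance under power maps
-/

set_option autoImplicit false

namespace Cfsg.Agent.Lib.Helper16

open Cfsg

/-- a `p`-rational character is invariant under the power maps `k ≡ 1 (mod m)`, `p ∤ k` -/
theorem pow_inv_of_rational {X : Type*} [Group X] [Finite X] {p a m r k : ℕ} (hp : p.Prime)
    (hpm : ¬ p ∣ m) (hcard : Nat.card X ∣ p ^ a * m) (hpr : ¬ p ∣ r) {ψ : X → ℂ}
    (hψ : IsCharacter X ψ)
    (hrat : ∀ g : X, ψ g ∈ IntermediateField.adjoin ℚ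
      ({Complex.exp (2 * Real.pi * Complex.I / r)} : Set ℂ))
    (hk1 : k ≡ 1 [MOD m]) (hk2 : ¬ p ∣ k) (x : X) : ψ (x ^ k) = ψ x := by
  have hr : 0 < r := Nat.pos_of_ne_zero (by rintro rfl; exact hpr (dvd_zero p))
  have hm : 0 < m := Nat.pos_of_ne_zero (by rintro rfl; exact hpm (dvd_zero p))
  have hcop : Nat.Coprime (r * m) (p ^ a) :=
    Nat.Coprime.pow_right a ((Nat.Prime.coprime_iff_not_dvd hp).2 (hp.not_dvd_mul hpr hpm)).symm
  have hcopm : Nat.Coprime m (p ^ a) :=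
    Nat.Coprime.pow_right a ((Nat.Prime.coprime_iff_not_dvd hp).2 hpm).symm
  obtain ⟨k', hk'1, hk'2⟩ := Nat.chineseRemainder hcop 1 k
  have hkr : Nat.Coprime k' (r * m) := by
    have := hk'1.gcd_eq
    rw [Nat.gcd_one_left] at this
    exact this
  have hkp : Nat.Coprime k' (p ^ a) := by
    have h1 := hk'2.gcd_eq
    have h2 : Nat.Coprime k (p ^ a) :=
      Nat.Coprime.pow_right a ((Nat.Prime.coprime_iff_not_dvd hp).2 hk2).symm
    exact h1.trans h2
  obtain ⟨τ, hτ⟩ := Lib.Helper76.exists_ringAut_complex (r * m * p ^ a)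
    (Nat.mul_pos (Nat.mul_pos hr hm) (pow_pos hp.pos a)) k' (Nat.Coprime.mul_right hkr hkp)
  have h1 : τ.toRingHom (ψ x) = ψ (x ^ k') := by
    apply Lib.Helper76.IsCharacter.map_ringHom_apply hψ τ.toRingHom k'
    intro w hw
    apply hτ
    obtain ⟨c, hc⟩ := hcard
    have : r * m * p ^ a = Nat.card X * (c * r) := by
      calc r * m * p ^ a = (p ^ a * m) * r := by ring
        _ = Nat.card X * (c * r) := by rw [hc]; ring
    rw [this, pow_mul, hw, one_pow]
  have hxk : x ^ k' = x ^ k := by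
    have hx : x ^ (m * p ^ a) = 1 := by
      obtain ⟨c, hc⟩ := hcard
      rw [mul_comm m, hc, pow_mul, pow_card_eq_one', one_pow]
    have hmod : k' ≡ k [MOD m * p ^ a] := by
      rw [← Nat.modEq_and_modEq_iff_modEq_mul hcopm]
      exact ⟨((hk'1.of_mul_left r)).trans hk1.symm, hk'2⟩
    rw [pow_eq_pow_mod k' hx, pow_eq_pow_mod k hx]
    exact congrArg _ hmod
  set ζ : ℂ := Complex.exp (2 * Real.pi * Complex.I / r) with hζ
  have hζr : ζ ^ r = 1 := by
    rw [hζ, ← Complex.exp_nat_mul]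
    have hr' : (r : ℂ) ≠ 0 := by exact_mod_cast hr.ne'
    rw [mul_div_cancel₀ _ hr']
    exact Complex.exp_two_pi_mul_I
  have hτζ : τ ζ = ζ := by
    rw [hτ ζ (by rw [mul_assoc, pow_mul, hζr, one_pow]), pow_eq_pow_mod k' hζr]
    have : k' % r = 1 % r := hk'1.of_mul_right m
    rw [this, ← pow_eq_pow_mod 1 hζr, pow_one]
  have hfix : ∀ z ∈ IntermediateField.adjoin ℚ ({ζ} : Set ℂ), τ z = z := by
    intro z hz
    induction hz using IntermediateField.adjoin_induction with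
    | mem y hy =>
      rw [Set.mem_singleton_iff] at hy
      rw [hy, hτζ]
    | algebraMap q => exact map_ratCast τ q
    | add y z _ _ hy hz => rw [map_add, hy, hz]
    | inv y _ hy => rw [map_inv₀, hy]
    | mul y z _ _ hy hz => rw [map_mul, hy, hz]
  have h2 : τ.toRingHom (ψ x) = ψ x := hfix _ (hrat x)
  rw [← hxk, ← h1, h2]

/-- conversely, invariance under these power maps forces `p`-rationality -/
theorem rational_of_pow_inv {X : Type*} [Group X] [Finite X] {p a m : ℕ} (hp : p.Prime)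
    (hpm : ¬ p ∣ m) (hcard : Nat.card X = p ^ a * m) {χ : X → ℂ} (hχ : IsCharacter X χ)
    (hinv : ∀ k : ℕ, k ≡ 1 [MOD m] → ¬ p ∣ k → ∀ x : X, χ (x ^ k) = χ x) (x : X) :
    χ x ∈ IntermediateField.adjoin ℚ ({Complex.exp (2 * Real.pi * Complex.I / m)} : Set ℂ) := by
  classical
  have hm0 : m ≠ 0 := by rintro rfl; exact hpm (dvd_zero p)
  haveI : NeZero m := ⟨hm0⟩
  set K := IntermediateField.adjoin ℚ ({Complex.exp (2 * Real.pi * Complex.I / (m : ℂ))} : Set ℂ)
    with hK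
  have hprim : IsPrimitiveRoot (Complex.exp (2 * Real.pi * Complex.I / (m : ℂ))) m :=
    Complex.isPrimitiveRoot_exp m hm0
  have hη : Complex.exp (2 * Real.pi * Complex.I / (m : ℂ)) ∈ K :=
    IntermediateField.subset_adjoin ℚ _ (Set.mem_singleton _)
  have hroot : ∀ μ : ℂ, μ ^ m = 1 → μ ∈ K := by
    intro μ hμ
    obtain ⟨i, -, hi⟩ := hprim.eq_pow_of_pow_eq_one hμ
    rw [← hi]
    exact pow_mem hη i
  obtain ⟨d, ρ, rfl⟩ := hχ
  obtain ⟨μ, hμ1, hμ2⟩ := Lib.Helper76.exists_char_eigenvalues ρ x (p ^ a * m)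
    (Nat.mul_pos (pow_pos hp.pos a) (Nat.pos_of_ne_zero hm0))
    (by rw [← hcard]; exact pow_card_eq_one')
  rcases Nat.eq_zero_or_pos a with rfl | ha
  · have h1 := hμ2 1
    rw [pow_one] at h1
    rw [h1]
    refine sum_mem fun i _ => hroot _ ?_
    have := hμ1 i
    simpa using this
  have hcop : Nat.Coprime (p ^ a) m :=
    Nat.Coprime.pow_left a ((Nat.Prime.coprime_iff_not_dvd hp).2 hpm)
  obtain ⟨e1, he1a, he1b⟩ := Nat.chineseRemainder hcop 1 0
  obtain ⟨e2, he2a, he2b⟩ := Nat.chineseRemainder hcop 0 1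
  have hme1 : m ∣ e1 := (Nat.modEq_zero_iff_dvd).1 he1b
  have hpe2 : p ^ a ∣ e2 := (Nat.modEq_zero_iff_dvd).1 he2a
  set J := (Finset.range (p ^ a)).filter (fun j => ¬ p ∣ j) with hJ
  have h1J : 1 ∈ J := by
    rw [hJ, Finset.mem_filter, Finset.mem_range]
    exact ⟨Nat.one_lt_pow ha.ne' hp.one_lt, fun h => hp.one_lt.ne' (Nat.dvd_one.1 h)⟩
  have hJ0 : (J.card : ℂ) ≠ 0 := by
    exact_mod_cast (Finset.card_pos.2 ⟨1, h1J⟩).ne'
  have hkj : ∀ j ∈ J, ρ.character (x ^ (e1 * j + e2)) = ρ.character x := by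
    intro j hj
    rw [hJ, Finset.mem_filter] at hj
    apply hinv
    · have : e1 * j + e2 ≡ 0 * j + 1 [MOD m] := (he1b.mul_right j).add he2b
      simpa using this
    · intro hdiv
      have h1 : e1 * j + e2 ≡ 1 * j + 0 [MOD p ^ a] := (he1a.mul_right j).add he2a
      have h2 : e1 * j + e2 ≡ j [MOD p] := by
        have := h1.of_dvd (dvd_pow_self p ha.ne')
        simpa using this
      exact hj.2 ((Nat.modEq_zero_iff_dvd).1 (h2.symm.trans ((Nat.modEq_zero_iff_dvd).2 hdiv)))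
  have hsum : (J.card : ℂ) * ρ.character x
      = ∑ i, μ i ^ e2 * ∑ j ∈ J, (μ i ^ e1) ^ j := by
    have : (J.card : ℂ) * ρ.character x = ∑ j ∈ J, ρ.character (x ^ (e1 * j + e2)) := by
      rw [Finset.sum_congr rfl hkj, Finset.sum_const, nsmul_eq_mul]
    rw [this]
    simp_rw [hμ2, Finset.mul_sum]
    rw [Finset.sum_comm]
    refine Finset.sum_congr rfl fun i _ => Finset.sum_congr rfl fun j _ => ?_
    rw [pow_add, pow_mul, mul_comm]
  have hmem : (J.card : ℂ) * ρ.character x ∈ K := by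
    rw [hsum]
    refine sum_mem fun i _ => mul_mem (hroot _ ?_) ?_
    · obtain ⟨c, hc⟩ := hpe2
      rw [← pow_mul, hc, mul_assoc, mul_comm c m, ← mul_assoc, pow_mul, hμ1, one_pow]
    · set ω := μ i ^ e1 with hω
      have hω1 : ω ^ (p ^ a) = 1 := by
        obtain ⟨c, hc⟩ := hme1
        rw [hω, ← pow_mul, hc, mul_comm (m * c), ← mul_assoc, pow_mul, hμ1, one_pow]
      have hsplit : ∑ j ∈ J, ω ^ j = ∑ j ∈ Finset.range (p ^ a), ω ^ j
          - ∑ j ∈ (Finset.range (p ^ a)).filter (p ∣ ·), ω ^ j := by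
        rw [hJ, eq_sub_iff_add_eq, add_comm]
        exact Finset.sum_filter_add_sum_filter_not _ _ _
      have hpa : p ^ a = p * p ^ (a - 1) := by
        rw [← pow_succ', Nat.sub_add_cancel ha]
      have hω2 : (ω ^ p) ^ (p ^ (a - 1)) = 1 := by
        rw [← pow_mul, ← hpa, hω1]
      rw [hsplit, Cfsg.Agent.S4488.geom_root' hω1]
      have h3 : ∑ j ∈ (Finset.range (p ^ a)).filter (p ∣ ·), ω ^ j
          = ∑ j ∈ Finset.range (p ^ (a - 1)), (ω ^ p) ^ j := by
        conv_lhs => rw [hpa]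
        rw [Cfsg.Agent.S4488.sum_filter_dvd p _ hp.pos]
        refine Finset.sum_congr rfl fun j _ => ?_
        rw [pow_mul]
      rw [h3, Cfsg.Agent.S4488.geom_root' hω2]
      refine sub_mem ?_ ?_ <;> split_ifs <;> first | exact natCast_mem K _ | exact zero_mem K
  have : ρ.character x = (J.card : ℂ)⁻¹ * ((J.card : ℂ) * ρ.character x) := by
    rw [← mul_assoc, inv_mul_cancel₀ hJ0, one_mul]
  rw [this]
  exact mul_mem (inv_mem (natCast_mem K _)) hmem

end Cfsg.Agent.Lib.Helper16
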